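import Cfsg.Agent.H721.FR.Base
import Cfsg.Agent.Characters.Central

/-!
# Products, quotients and wreath products for `FSZ` (helper855, S4970, piece WR)

`FSZ z` (`z` central, `z² = 1`) holds if and only if `∑ χ(z s²)` is a natural number for all characters `χ`.
-/

set_option autoImplicit false

universe u

namespace Cfsg.Agent.H855.FR

open Cfsg Cfsg.Agent.H955.FS Cfsg.Agent.H721.FR Cfsg.Agent.Characters.Core

/-! ### The sum `∑ χ(z s²)` -/

theorem central_mul {G : Type u} [Group G] [Finite G] {χ : G → ℂ} (hχ : IsIrrCharacter G χ)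
    {z : G} (hz : ∀ g, g * z = z * g) (g : G) : χ (z * g) = (χ z / χ 1) * χ g := by
  have := Fintype.ofFinite G
  have h1 := Characters.Central.sum_char_conj_mul hχ z g
  have h2 : ∀ a : G, a * z * a⁻¹ * g = z * g := by
    intro a
    rw [hz a]
    group
  rw [Finset.sum_congr rfl (fun a _ => by rw [h2 a]), Finset.sum_const, Finset.card_univ,
    nsmul_eq_mul, ← Nat.card_eq_fintype_card] at h1
  have h3 : (Nat.card G : ℂ) ≠ 0 := card_ne_zero_complex
  have h4 : (Nat.card G : ℂ) * χ (z * g) = (Nat.card G : ℂ) * ((χ z / χ 1) * χ g) := by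
    rw [h1]
    ring
  exact mul_left_cancel₀ h3 h4

theorem central_val {G : Type u} [Group G] [Finite G] {χ : G → ℂ} (hχ : IsIrrCharacter G χ)
    {z : G} (hz : ∀ g, g * z = z * g) (hz2 : z * z = 1) : χ z = χ 1 ∨ χ z = - χ 1 := by
  have h0 := isIrr_apply_one_ne_zero hχ
  have h1 := central_mul hχ hz z
  rw [hz2] at h1
  have h2 : (χ z - χ 1) * (χ z + χ 1) = 0 := by
    field_simp at h1
    linear_combination -h1
  rcases mul_eq_zero.1 h2 with h3 | h3
  · exact Or.inl (sub_eq_zero.1 h3)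
  · exact Or.inr (eq_neg_of_add_eq_zero_left h3)

theorem mul_cases {G : Type u} [Group G] [Finite G] {χ : G → ℂ} (hχ : IsIrrCharacter G χ) {z : G}
    (hz : ∀ g, g * z = z * g) (hz2 : z * z = 1) (h : FSZ z) : fsi χ * χ z = 0 ∨ fsi χ * χ z = χ 1 := by
  have h0 := h χ hχ
  rcases fsi_cases hχ with h1 | h1 | h1
  · left
    rw [h1, zero_mul]
  · rcases central_val hχ hz hz2 with h2 | h2
    · right
      rw [h1, h2, one_mul]
    · rw [h1, h2, one_mul] at h0
      exact absurd rfl h0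
  · rcases central_val hχ hz hz2 with h2 | h2
    · rw [h1, h2, neg_one_mul] at h0
      exact absurd rfl h0
    · right
      rw [h1, h2, neg_one_mul, neg_neg]

theorem sum_eq {G : Type u} [Group G] [Fintype G] {χ : G → ℂ} (hχ : IsIrrCharacter G χ) {z : G}
    (hz : ∀ g, g * z = z * g) : (∑ s : G, χ (z * (s * s))) * χ 1 = (Nat.card G : ℂ) * (fsi χ * χ z) := by
  have h0 := isIrr_apply_one_ne_zero hχ
  have h3 : (Nat.card G : ℂ) ≠ 0 := card_ne_zero_complex
  rw [Finset.sum_congr rfl (fun s _ => central_mul hχ hz (s * s)), ← Finset.mul_sum, fsi_eq_sum]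
  field_simp

/-- the sums over characters are natural numbers -/
theorem exists_nat {G : Type u} [Group G] [Fintype G] {z : G} (hz : ∀ g, g * z = z * g) (hz2 : z * z = 1)
    (h : FSZ z) {θ : G → ℂ} (hθ : IsCharacter G θ) : ∃ n : ℕ, ∑ s : G, θ (z * (s * s)) = n := by
  classical
  have := finite_irr (G := G)
  have := Fintype.ofFinite (IrrCharacter G)
  obtain ⟨m, rfl⟩ := exists_nat_comb hθ
  have h1 : ∀ χ : IrrCharacter G, ∃ n : ℕ, ∑ s : G, (χ : G → ℂ) (z * (s * s)) = n := by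
    intro χ
    have h0 := isIrr_apply_one_ne_zero χ.2
    have h2 := sum_eq χ.2 hz
    rcases mul_cases χ.2 hz hz2 h with h3 | h3
    · rw [h3, mul_zero] at h2
      exact ⟨0, by rw [Nat.cast_zero]; exact (mul_eq_zero.1 h2).resolve_right h0⟩
    · rw [h3] at h2
      exact ⟨Nat.card G, mul_right_cancel₀ h0 h2⟩
  choose n hn using h1
  refine ⟨∑ χ : IrrCharacter G, m χ * n χ, ?_⟩
  push_cast
  simp only [Finset.sum_apply, Pi.smul_apply]
  rw [Finset.sum_comm]
  refine Finset.sum_congr rfl fun χ _ => ?_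
  rw [← Finset.smul_sum, hn, nsmul_eq_mul]

theorem fsz_of_nat {G : Type u} [Group G] [Fintype G] {z : G} (hz : ∀ g, g * z = z * g)
    (h : ∀ χ : G → ℂ, IsIrrCharacter G χ → ∃ n : ℕ, ∑ s : G, χ (z * (s * s)) = n) : FSZ z := by
  intro χ hχ h1
  obtain ⟨n, hn⟩ := h χ hχ
  have h0 := isIrr_apply_one_ne_zero hχ
  have h2 := sum_eq hχ hz
  rw [h1, hn] at h2
  have h3 : ((n + Nat.card G : ℕ) : ℂ) * χ 1 = 0 := by
    push_cast
    linear_combination h2
  have h4 : n + Nat.card G = 0 := by exact_mod_cast (mul_eq_zero.1 h3).resolve_right h0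
  exact Nat.card_pos.ne' (Nat.eq_zero_of_add_eq_zero_left h4)

/-! ### Products and quotients -/

/-- **(1)** -/
theorem FSZ.prod {G H : Type u} [Group G] [Group H] [Finite G] [Finite H] {z₁ : G} {z₂ : H}
    (hz₁ : ∀ g, g * z₁ = z₁ * g) (h₁₁ : z₁ * z₁ = 1) (hz₂ : ∀ g, g * z₂ = z₂ * g) (h₂₂ : z₂ * z₂ = 1)
    (h₁ : FSZ z₁) (h₂ : FSZ z₂) : FSZ ((z₁, z₂) : G × H) := by
  intro χ hχ
  obtain ⟨φ, ψ, hφ, hψ, rfl⟩ := (S0188.result χ).1 hχ
  have h3 := isIrr_apply_one_ne_zero hφ
  have h4 := isIrr_apply_one_ne_zero hψ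
  rw [fsi_outer]
  change fsi φ * fsi ψ * (φ z₁ * ψ z₂) ≠ - (φ 1 * ψ 1)
  have h5 : fsi φ * fsi ψ * (φ z₁ * ψ z₂) = (fsi φ * φ z₁) * (fsi ψ * ψ z₂) := by ring
  have h6 : φ 1 * ψ 1 ≠ 0 := mul_ne_zero h3 h4
  rw [h5]
  rcases mul_cases hφ hz₁ h₁₁ h₁ with h7 | h7
  · rw [h7, zero_mul]
    exact (neg_ne_zero.2 h6).symm
  · rcases mul_cases hψ hz₂ h₂₂ h₂ with h8 | h8
    · rw [h8, mul_zero]
      exact (neg_ne_zero.2 h6).symm
    · rw [h7, h8]
      intro h9
      exact h6 (self_eq_neg.1 h9)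

/-- **(2)** -/
theorem FSZ.of_surjective {G H : Type u} [Group G] [Group H] [Finite G] (f : G →* H)
    (hf : Function.Surjective f) {z : G} (h : FSZ z) : FSZ (f z) := by
  intro χ hχ
  have h1 := h (χ ∘ f) (isIrr_comp f hf hχ)
  rw [fsi_comp f hf, Function.comp_apply, Function.comp_apply, map_one] at h1
  exact h1

theorem FSZ.of_mulEquiv {G H : Type u} [Group G] [Group H] [Finite G] (e : G ≃* H) {z : G} (h : FSZ z) :
    FSZ (e z) :=
  FSZ.of_surjective e.toMonoidHom e.surjective h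

/-- **(2)**, for `f z = 1` -/
theorem FSZ.good_of_surjective {G H : Type u} [Group G] [Group H] [Finite G] (f : G →* H)
    (hf : Function.Surjective f) {z : G} (h : FSZ z) (hfz : f z = 1) : FSGood True H := by
  have : Finite H := Finite.of_surjective f hf
  have h1 := FSZ.of_surjective f hf h
  rw [hfz] at h1
  exact fsz_one_iff.1 h1

/-- **(2)**, the quotient -/
theorem FSZ.good_quotient {G : Type u} [Group G] [Finite G] {z : G} (h : FSZ z) (N : Subgroup G) [N.Normal]
    (hz : z ∈ N) : FSGood True (G ⧸ N) :=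
  FSZ.good_of_surjective (QuotientGroup.mk' N) (QuotientGroup.mk'_surjective N) h
    ((QuotientGroup.eq_one_iff z).2 hz)

/-! ### Wreath products -/

section

variable {H Γ : Type u} [Group H] [Group Γ]

/-- the two cosets -/
def two (N : Subgroup Γ) (e : H × H ≃* N) (τ : Γ) : (H × H) ⊕ (H × H) → Γ :=
  Sum.elim (fun x => (e x : Γ)) (fun x => (e x : Γ) * τ)

theorem two_bijective {N : Subgroup Γ} (hN : N.index = 2) (e : H × H ≃* N) {τ : Γ} (hτ : τ ∉ N) :
    Function.Bijective (two N e τ) := by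
  constructor
  · rintro (x | x) (y | y) h
    · exact congrArg Sum.inl (e.injective (Subtype.ext h))
    · exfalso
      have h1 : (e x : Γ) = e y * τ := h
      apply hτ
      have h2 : τ = (e y : Γ)⁻¹ * e x := by rw [h1, inv_mul_cancel_left]
      rw [h2]
      exact mul_mem (inv_mem (e y).2) (e x).2
    · exfalso
      have h1 : (e x : Γ) * τ = e y := h
      apply hτ
      have h2 : τ = (e x : Γ)⁻¹ * e y := by rw [← h1, inv_mul_cancel_left]
      rw [h2]
      exact mul_mem (inv_mem (e x).2) (e y).2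
    · exact congrArg Sum.inr (e.injective (Subtype.ext (mul_right_cancel (b := τ) h)))
  · intro g
    by_cases hg : g ∈ N
    · exact ⟨Sum.inl (e.symm ⟨g, hg⟩), by simp [two]⟩
    · have h1 : g * τ⁻¹ ∈ N := by
        rw [Subgroup.mul_mem_iff_of_index_two hN, inv_mem_iff]
        exact iff_of_false hg hτ
      exact ⟨Sum.inr (e.symm ⟨g * τ⁻¹, h1⟩), by simp [two]⟩

theorem two_sq {N : Subgroup Γ} {e : H × H ≃* N} {τ : Γ} (hτ2 : τ * τ = 1)
    (hc : ∀ a b, τ * e (a, b) * τ⁻¹ = e (b, a)) (a b : H) :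
    ((e (a, b) : Γ) * τ) * ((e (a, b) : Γ) * τ) = e (a * b, b * a) := by
  have h1 : (e (a * b, b * a) : Γ) = e (a, b) * e (b, a) := by
    rw [← Subgroup.coe_mul, ← map_mul]
    rfl
  have h2 : τ⁻¹ = τ := inv_eq_of_mul_eq_one_left hτ2
  have h3 : (e (b, a) : Γ) = τ * e (a, b) * τ := by rw [← hc, h2]
  rw [h1, h3]
  simp only [mul_assoc]

/-- a class function of `H × H` -/
theorem class_diag {θ : H × H → ℂ} (hθ : IsClassFunction (H × H) θ) {z : H} (hz : ∀ g, g * z = z * g) (a b : H) :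
    θ (z * (a * b), z * (b * a)) = θ (z * (a * b), z * (a * b)) := by
  rw [← hθ (z * (a * b), z * (b * a)) (1, a)]
  congr 1
  ext
  · simp
  · change a * (z * (b * a)) * a⁻¹ = z * (a * b)
    rw [← mul_assoc a z, hz a]
    group

/-- **(3)** -/
theorem FSZ.wreath [Finite Γ] {z : H} (hz : ∀ g, g * z = z * g) (hz2 : z * z = 1) {N : Subgroup Γ}
    (hN : N.index = 2) (e : H × H ≃* N) {τ : Γ} (hτ : τ ∉ N) (hτ2 : τ * τ = 1)
    (hc : ∀ a b, τ * e (a, b) * τ⁻¹ = e (b, a)) (h : FSZ z) : FSZ (e (z, z) : Γ) := by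
  classical
  have : Finite (H × H) := Finite.of_equiv _ e.symm.toEquiv
  have : Finite H := Finite.of_injective (fun x : H => (x, x)) fun x y hxy => congrArg Prod.fst hxy
  have := Fintype.ofFinite Γ
  have := Fintype.ofFinite H
  have hbij := two_bijective hN e hτ
  -- the element is central
  have hw : ∀ g : Γ, g * e (z, z) = e (z, z) * g := by
    intro g
    have h1 : ∀ x : H × H, (e x : Γ) * e (z, z) = e (z, z) * e x := by
      rintro ⟨a, b⟩
      rw [← Subgroup.coe_mul, ← Subgroup.coe_mul, ← map_mul, ← map_mul]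
      congr 2
      exact Prod.ext (hz a) (hz b)
    have h2 : τ * e (z, z) = e (z, z) * τ := by
      have h3 := hc z z
      rwa [mul_inv_eq_iff_eq_mul] at h3
    obtain ⟨x | x, rfl⟩ := hbij.2 g
    · exact h1 x
    · change (e x : Γ) * τ * e (z, z) = e (z, z) * ((e x : Γ) * τ)
      rw [mul_assoc, h2, ← mul_assoc, h1, mul_assoc]
  refine fsz_of_nat hw fun χ hχ => ?_
  -- the restriction to `H × H`
  let f : H × H →* Γ := N.subtype.comp e.toMonoidHom
  have hf : ∀ x, f x = e x := fun x => rfl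
  have hθ : IsCharacter (H × H) (χ ∘ f) := isCharacter_comp f (isIrr_isCharacter hχ)
  obtain ⟨n, hn⟩ := exists_nat (z := ((z, z) : H × H)) (fun g => Prod.ext (hz g.1) (hz g.2))
    (Prod.ext hz2 hz2) (FSZ.prod hz hz2 hz hz2 h h) hθ
  let δ : H →* H × H := (MonoidHom.id H).prod (MonoidHom.id H)
  obtain ⟨m, hm⟩ := Blocks.ReynoldsAux.exists_nat_sum_comp δ hθ
  refine ⟨n + Fintype.card H * m, ?_⟩
  rw [← Function.Bijective.sum_comp hbij (fun s => χ ((e (z, z) : Γ) * (s * s))), Fintype.sum_sum_type, Nat.cast_add,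
    Nat.cast_mul]
  congr 1
  · rw [← hn]
    refine Finset.sum_congr rfl fun x _ => ?_
    rw [Function.comp_apply, map_mul, map_mul]
    rfl
  · rw [Fintype.sum_prod_type, ← hm, ← nsmul_eq_mul, ← Finset.card_univ, ← Finset.sum_const]
    refine Finset.sum_congr rfl fun a _ => ?_
    rw [← Equiv.sum_comp (Equiv.mulLeft (z * a)) (fun x => (χ ∘ f) (δ x))]
    refine Finset.sum_congr rfl fun b _ => ?_
    have h3 := class_diag (isCharacter_isClassFunction hθ) hz a b
    have h4 : two N e τ (Sum.inr (a, b)) = (e (a, b) : Γ) * τ := rfl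
    rw [h4, two_sq hτ2 hc]
    have h5 : (e (z, z) : Γ) * e (a * b, b * a) = f (z * (a * b), z * (b * a)) := by
      rw [hf, ← Subgroup.coe_mul, ← map_mul]
      rfl
    rw [h5]
    change (χ ∘ f) _ = _
    rw [h3, ← mul_assoc]
    rfl

end

end Cfsg.Agent.H855.FR
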